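import Mathlib
import Cfsg.Agent.H68.MeetBase

/-!
# Sylow `2`-subgroups of symmetric groups: tools

* `meet_of_sub` : it is enough to treat a subgroup of odd index;
* `index_cent` : the index of the centralizer of an involution with few fixed points.
-/

set_option autoImplicit false

namespace Cfsg.Agent.H178.MeetTwo

open Equiv Cfsg.Agent.H68.MeetB

/-- it is enough to treat a subgroup of odd index -/
theorem meet_of_sub {T : Type*} [Group T] [Finite T] (H : Subgroup T) (hi : ¬ 2 ∣ H.index) (x : T)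
    (h : ∀ y ∈ H, x * y * x⁻¹ ∈ H → y = 1) : MeetIn 2 T := by
  have : Fact (Nat.Prime 2) := ⟨Nat.prime_two⟩
  obtain ⟨Q⟩ : Nonempty (Sylow 2 H) := inferInstance
  refine MeetIn.of_one ((Q : Subgroup H).map H.subtype) (Q.isPGroup'.map _) ?_ ⟨x, ?_⟩
  · rw [Subgroup.index_map_subtype]
    intro h1
    rcases Nat.prime_two.dvd_mul.1 h1 with h2 | h2
    · exact Q.not_dvd_index h2
    · exact hi h2
  · rintro _ ⟨y, _, rfl⟩ hxy
    obtain ⟨z, _, hz⟩ := hxy
    refine h y y.2 ?_
    have : x * (H.subtype y) * x⁻¹ ∈ H := by rw [← hz]; exact z.2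
    exact this

section

variable {α : Type*} [Fintype α] [DecidableEq α]

theorem cycleType_of {σ : Perm α} (h2 : σ ^ 2 = 1) {m : ℕ} (hs : σ.support.card = 2 * m) :
    σ.cycleType = Multiset.replicate m 2 := by
  rcases Nat.eq_zero_or_pos m with h0 | h0
  · subst h0
    rw [mul_zero, Finset.card_eq_zero, Perm.support_eq_empty_iff] at hs
    rw [hs, Perm.cycleType_one, Multiset.replicate_zero]
  · have h1 : σ ≠ 1 := by
      rintro rfl
      rw [Perm.support_one, Finset.card_empty] at hs
      omega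
    have ho : orderOf σ = 2 := by
      have : Fact (Nat.Prime 2) := ⟨Nat.prime_two⟩
      exact orderOf_eq_prime h2 h1
    obtain ⟨n, hn⟩ := Perm.cycleType_prime_order (σ := σ) (by rw [ho]; exact Nat.prime_two)
    rw [ho] at hn
    have h3 := Perm.sum_cycleType σ
    rw [hn, hs, Multiset.sum_replicate, smul_eq_mul, mul_comm] at h3
    rw [hn, Nat.eq_of_mul_eq_mul_left (by norm_num) h3]

theorem card_cent {σ : Perm α} (h2 : σ ^ 2 = 1) {m r : ℕ} (hs : σ.support.card = 2 * m)
    (hr : Fintype.card α = 2 * m + r) :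
    Nat.card (Subgroup.centralizer {σ}) = r.factorial * 2 ^ m * m.factorial := by
  rw [Perm.nat_card_centralizer, cycleType_of h2 hs, Multiset.sum_replicate, Multiset.prod_replicate,
    smul_eq_mul, mul_comm m 2, hr, Nat.add_sub_cancel_left]
  rcases Nat.eq_zero_or_pos m with h0 | h0
  · subst h0
    simp
  · rw [Multiset.toFinset_replicate, if_neg h0.ne', Finset.prod_singleton, Multiset.count_replicate_self]

theorem index_cent {σ : Perm α} (h2 : σ ^ 2 = 1) {m r : ℕ} (hs : σ.support.card = 2 * m)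
    (hr : Fintype.card α = 2 * m + r) (h : r ≤ 1 ∨ (r = 2 ∧ Even m)) :
    ¬ 2 ∣ (Subgroup.centralizer {σ}).index := by
  have : Fact (Nat.Prime 2) := ⟨Nat.prime_two⟩
  have h1 := (Subgroup.centralizer {σ}).card_mul_index
  rw [card_cent h2 hs hr, Nat.card_perm, Nat.card_eq_fintype_card, hr] at h1
  have hi : (Subgroup.centralizer {σ}).index ≠ 0 := Subgroup.index_ne_zero_of_finite
  have h3 := congrArg (padicValNat 2) h1
  have hpm : 2 ^ m ≠ 0 := pow_ne_zero _ (by norm_num)
  have hrf : r.factorial ≠ 0 := Nat.factorial_ne_zero r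
  have hmf : m.factorial ≠ 0 := Nat.factorial_ne_zero m
  rw [padicValNat.mul (mul_ne_zero (mul_ne_zero hrf hpm) hmf) hi, padicValNat.mul (mul_ne_zero hrf hpm) hmf,
    padicValNat.mul hrf hpm, padicValNat.prime_pow] at h3
  intro h4
  have h5 := (dvd_iff_padicValNat_ne_zero hi).1 h4
  rcases h with h | ⟨rfl, he⟩
  · rw [padicValNat_factorial_mul_add _ (by omega), padicValNat_factorial_mul] at h3
    omega
  · rw [show 2 * m + 2 = 2 * (m + 1) by ring, padicValNat_factorial_mul, Nat.factorial_succ m,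
      padicValNat.mul (Nat.succ_ne_zero m) hmf, Nat.factorial_two, padicValNat_self,
      padicValNat.eq_zero_of_not_dvd (n := m + 1) (by rcases he with ⟨k, hk⟩; omega)] at h3
    omega

end

end Cfsg.Agent.H178.MeetTwo
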