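import Mathlib
import Cfsg.Agent.H178.MeetTwo.Base

/-!
# The degrees `n ≡ 0 mod 4`, `n ≥ 12`
-/

set_option autoImplicit false

namespace Cfsg.Agent.H178.MeetTwo

open Equiv Cfsg.Agent.H68.MeetB

/-- the points -/
abbrev Om (m : ℕ) := ZMod m × ZMod 2

/-- the first matching -/
def sg (m : ℕ) : Perm (Om m) := Equiv.prodCongr (Equiv.refl _) (Equiv.addRight 1)

theorem sg_apply {m : ℕ} (a : Om m) : sg m a = (a.1, a.2 + 1) := rfl

theorem two_cases (s : ZMod 2) : s = 0 ∨ s = 1 := by
  fin_cases s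
  · exact Or.inl rfl
  · exact Or.inr rfl

theorem sg_sq {m : ℕ} : sg m ^ 2 = 1 := by
  ext1 a
  rw [pow_two, Perm.mul_apply, sg_apply, sg_apply, Perm.one_apply]
  refine Prod.ext rfl ?_
  rcases two_cases a.2 with h | h <;> simp only [h] <;> decide

theorem comm_apply {m : ℕ} {y : Perm (Om m)} (hy : y ∈ Subgroup.centralizer {sg m}) (a : Om m) :
    y (sg m a) = sg m (y a) := by
  rw [Subgroup.mem_centralizer_singleton_iff] at hy
  exact congrFun (congrArg DFunLike.coe hy) a

theorem fst_eq {m : ℕ} {y : Perm (Om m)} (hy : y ∈ Subgroup.centralizer {sg m}) (a : Om m) :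
    (y a).1 = (y (a.1, 0)).1 := by
  obtain ⟨i, s⟩ := a
  rcases two_cases s with rfl | rfl
  · rfl
  · have h := congrArg Prod.fst (comm_apply hy (i, 0))
    rw [sg_apply, sg_apply] at h
    simpa using h

theorem support_univ {α : Type*} [Fintype α] [DecidableEq α] {f : Perm α} (h : ∀ a, f a ≠ a) :
    f.support = Finset.univ :=
  Finset.eq_univ_iff_forall.2 fun a => Perm.mem_support.2 (h a)

/-- the action on the edges of the first matching -/
def bar (m : ℕ) : ↥(Subgroup.centralizer {sg m}) →* Perm (ZMod m) where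
  toFun y :=
    { toFun := fun i => ((y : Perm (Om m)) (i, 0)).1
      invFun := fun i => ((y : Perm (Om m))⁻¹ (i, 0)).1
      left_inv := fun i => by
        simp only
        rw [← fst_eq (inv_mem y.2)]
        simp
      right_inv := fun i => by
        simp only
        rw [← fst_eq y.2]
        simp }
  map_one' := by ext1 i; rfl
  map_mul' y z := by
    ext1 i
    change ((y : Perm (Om m)) ((z : Perm (Om m)) (i, 0))).1 =
      ((y : Perm (Om m)) (((z : Perm (Om m)) (i, 0)).1, 0)).1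
    exact fst_eq y.2 _

theorem bar_apply {m : ℕ} (y : ↥(Subgroup.centralizer {sg m})) (i : ZMod m) :
    bar m y i = ((y : Perm (Om m)) (i, 0)).1 := rfl

theorem bar_surj (m : ℕ) : Function.Surjective (bar m) := by
  intro f
  refine ⟨⟨Equiv.prodCongr f (Equiv.refl _), ?_⟩, ?_⟩
  · rw [Subgroup.mem_centralizer_singleton_iff]
    rfl
  · ext1 i
    rfl

/-- the stabilizer of the matching and of a matching on its edges -/
def stab {m : ℕ} (f : Perm (ZMod m)) : Subgroup (Perm (Om m)) :=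
  ((Subgroup.centralizer {f}).comap (bar m)).map (Subgroup.centralizer {sg m}).subtype

theorem mem_stab {m : ℕ} {f : Perm (ZMod m)} {y : Perm (Om m)} (h : y ∈ stab f) :
    ∃ _ : y ∈ Subgroup.centralizer {sg m}, ∀ i, (y (f i, 0)).1 = f (y (i, 0)).1 := by
  obtain ⟨⟨y, hy⟩, h1, rfl⟩ := h
  refine ⟨hy, fun i => ?_⟩
  have h2 : bar m ⟨y, hy⟩ ∈ Subgroup.centralizer {f} := h1
  rw [Subgroup.mem_centralizer_singleton_iff] at h2
  exact congrFun (congrArg DFunLike.coe h2) i

theorem stab_index {m k : ℕ} [NeZero m] (hm : m = 2 * k) {f : Perm (ZMod m)} (h2 : f ^ 2 = 1)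
    (hf : ∀ i, f i ≠ i) : ¬ 2 ∣ (stab f).index := by
  rw [stab, Subgroup.index_map_subtype, Subgroup.index_comap_of_surjective _ (bar_surj m)]
  intro h
  rcases Nat.prime_two.dvd_mul.1 h with h | h
  · refine index_cent (σ := f) h2 (m := k) (r := 0) ?_ ?_ (Or.inl (Nat.zero_le _)) h
    · rw [support_univ hf, Finset.card_univ, ZMod.card, hm]
    · rw [ZMod.card, hm, add_zero]
  · refine index_cent (σ := sg m) sg_sq (m := m) (r := 0) ?_ ?_ (Or.inl (Nat.zero_le _)) h
    · have : ∀ a, sg m a ≠ a := by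
        intro a h
        have h1 := congrArg Prod.snd h
        rw [sg_apply] at h1
        simp at h1
      rw [support_univ this, Finset.card_univ, Fintype.card_prod, ZMod.card, ZMod.card, mul_comm]
    · rw [Fintype.card_prod, ZMod.card, ZMod.card, mul_comm, add_zero]

/-- the conjugating permutation -/
def xx (m : ℕ) : Perm (Om m) where
  toFun a := if a.2 = 0 then (a.1 - 1, 0) else a
  invFun a := if a.2 = 0 then (a.1 + 1, 0) else a
  left_inv a := by
    obtain ⟨i, s⟩ := a
    rcases two_cases s with rfl | rfl <;> simp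
  right_inv a := by
    obtain ⟨i, s⟩ := a
    rcases two_cases s with rfl | rfl <;> simp

theorem xx_zero {m : ℕ} (i : ZMod m) : xx m (i, 0) = (i - 1, 0) := rfl

theorem xx_one {m : ℕ} (i : ZMod m) : xx m (i, 1) = (i, 1) := rfl

theorem xx_inv_zero {m : ℕ} (i : ZMod m) : (xx m)⁻¹ (i, 0) = (i + 1, 0) := rfl

theorem xx_inv_one {m : ℕ} (i : ZMod m) : (xx m)⁻¹ (i, 1) = (i, 1) := rfl

/-- a permutation commuting with both matchings -/
theorem dihedral {m : ℕ} [NeZero m] {y : Perm (Om m)} (h1 : y ∈ Subgroup.centralizer {sg m})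
    (h2 : xx m * y * (xx m)⁻¹ ∈ Subgroup.centralizer {sg m}) :
    ∃ c : ZMod m, (∀ i s, y (i, s) = (i + c, s)) ∨ (∀ i s, y (i, s) = (c - i, s + 1)) := by
  have e1 : ∀ i s, y (i, s + 1) = ((y (i, s)).1, (y (i, s)).2 + 1) := fun i s => comm_apply h1 (i, s)
  have e2 : ∀ i, y (i, 0) = (xx m)⁻¹ (sg m (xx m (y (i - 1, 1)))) := by
    intro i
    rw [Perm.eq_inv_iff_eq]
    have h3 := comm_apply h2 (i - 1, 1)
    rw [Perm.mul_apply, Perm.mul_apply, Perm.mul_apply, Perm.mul_apply, xx_inv_one] at h3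
    rw [← h3]
    change _ = xx m (y ((xx m)⁻¹ (i - 1, 0)))
    rw [xx_inv_zero, sub_add_cancel]
  -- one step
  have e3 : ∀ i c, y (i, 0) = (c, 0) → y (i + 1, 0) = (c + 1, 0) := by
    intro i c hc
    have h4 := e1 i 0
    rw [hc, zero_add] at h4
    rw [e2 (i + 1), add_sub_cancel_right, h4]
    rfl
  have e4 : ∀ i c, y (i, 0) = (c, 1) → y (i + 1, 0) = (c - 1, 1) := by
    intro i c hc
    have h4 := e1 i 0
    rw [hc, zero_add] at h4
    rw [e2 (i + 1), add_sub_cancel_right, h4]
    rfl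
  obtain ⟨c, s, hcs⟩ : ∃ c s, y (0, 0) = (c, s) := ⟨_, _, rfl⟩
  refine ⟨c, ?_⟩
  rcases two_cases s with rfl | rfl
  · left
    have h5 : ∀ n : ℕ, y ((n : ZMod m), 0) = ((n : ZMod m) + c, 0) := by
      intro n
      induction n with
      | zero => rw [Nat.cast_zero, zero_add]; exact hcs
      | succ n ih => rw [Nat.cast_succ, e3 _ _ ih]; congr 1; ring
    intro i s
    obtain ⟨n, rfl⟩ := ZMod.natCast_zmod_surjective i
    rcases two_cases s with rfl | rfl
    · exact h5 n
    · have h6 := e1 (n : ZMod m) 0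
      rw [h5, zero_add] at h6
      exact h6
  · right
    have h5 : ∀ n : ℕ, y ((n : ZMod m), 0) = (c - (n : ZMod m), 1) := by
      intro n
      induction n with
      | zero => rw [Nat.cast_zero, sub_zero]; exact hcs
      | succ n ih => rw [Nat.cast_succ, e4 _ _ ih]; congr 1; ring
    intro i s
    obtain ⟨n, rfl⟩ := ZMod.natCast_zmod_surjective i
    rcases two_cases s with rfl | rfl
    · rw [h5 n, zero_add]
    · have h6 := e1 (n : ZMod m) 0
      rw [h5, zero_add] at h6
      exact h6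

theorem meet_of_pi {m k : ℕ} (hk : 1 ≤ k) (hm : m = 2 * k) {f : Perm (ZMod m)} (h2 : f ^ 2 = 1)
    (hf : ∀ i, f i ≠ i) (h0 : f 0 = 1) (h1 : ∀ i, f i = i + 1 → i = 0) : MeetIn 2 (Perm (Om m)) := by
  have : NeZero m := ⟨by omega⟩
  have : Fact (1 < m) := ⟨by omega⟩
  refine meet_of_sub (stab f) (stab_index hm h2 hf) (xx m) fun y hy hxy => ?_
  obtain ⟨a1, a2⟩ := mem_stab hy
  obtain ⟨b1, b2⟩ := mem_stab hxy
  have hinv : ∀ i, f (f i) = i := fun i => by
    rw [← Perm.mul_apply, ← pow_two, h2, Perm.one_apply]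
  have key : ∀ c, f c = c - 1 → c = 1 := by
    intro c hc
    have h3 : f (c - 1) = c - 1 + 1 := by rw [← hc, hinv, hc]; ring
    exact sub_eq_zero.1 (h1 _ h3)
  obtain ⟨c, hc | hc⟩ := dihedral a1 b1
  · have h3 : c = 0 := by
      have h4 := a2 0
      rw [h0, hc, hc] at h4
      simp only at h4
      rw [zero_add] at h4
      exact h1 c (by rw [← h4]; ring)
    ext1 a
    obtain ⟨i, s⟩ := a
    rw [hc, h3, add_zero, Perm.one_apply]
  · exfalso
    have h3 : c = 1 := by
      have h4 := a2 0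
      rw [h0, hc, hc] at h4
      simp only [sub_zero] at h4
      exact key c h4.symm
    have h5 : ∀ i, ((xx m * y * (xx m)⁻¹) (i, 0)).1 = c - 1 - i := by
      intro i
      rw [Perm.mul_apply, Perm.mul_apply, xx_inv_zero, hc, zero_add, xx_one]
      simp only
      ring
    have h6 : c - 1 = 1 := by
      have h4 := b2 0
      rw [h0, h5, h5, sub_zero] at h4
      exact key _ h4.symm
    rw [h3, sub_self] at h6
    exact zero_ne_one h6

/-- the matching of the edges : natural numbers -/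
def ff (k i : ℕ) : ℕ := if i = 0 then 1 else if i = 1 then 0 else if i ≤ k then i + (k - 1) else i - (k - 1)

theorem ff_lt {k i : ℕ} (hk : 3 ≤ k) (hi : i < 2 * k) : ff k i < 2 * k := by
  unfold ff
  split_ifs <;> omega

theorem ff_ff {k i : ℕ} (hk : 3 ≤ k) (hi : i < 2 * k) : ff k (ff k i) = i := by
  by_cases h0 : i = 0
  · subst h0
    simp [ff]
  by_cases h1 : i = 1
  · subst h1
    simp [ff]
  by_cases h2 : i ≤ k
  · have h3 : ff k i = i + (k - 1) := by simp [ff, h0, h1, h2]
    rw [h3]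
    unfold ff
    rw [if_neg (by omega), if_neg (by omega), if_neg (by omega)]
    omega
  · have h3 : ff k i = i - (k - 1) := by simp [ff, h0, h1, h2]
    rw [h3]
    unfold ff
    rw [if_neg (by omega), if_neg (by omega), if_pos (by omega)]
    omega

theorem ff_ne {k i : ℕ} (hk : 3 ≤ k) : ff k i ≠ i := by
  unfold ff
  split_ifs <;> omega

theorem ff_succ {k i : ℕ} (hk : 3 ≤ k) (hi : i < 2 * k) (h : ff k i = i + 1) : i = 0 := by
  unfold ff at h
  split_ifs at h <;> omega

theorem ff_last {k i : ℕ} (hk : 3 ≤ k) (hi : i + 1 = 2 * k) (h : ff k i = 0) : False := by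
  unfold ff at h
  split_ifs at h <;> omega

/-- degree `4 k`, `k ≥ 3` -/
theorem meet_four {k : ℕ} (hk : 3 ≤ k) : MeetIn 2 (Perm (Om (2 * k))) := by
  have : NeZero (2 * k) := ⟨by omega⟩
  have hv : ∀ i : ZMod (2 * k), ((ff k i.val : ℕ) : ZMod (2 * k)).val = ff k i.val := fun i =>
    ZMod.val_natCast_of_lt (ff_lt hk i.val_lt)
  have hinv : Function.Involutive (fun i : ZMod (2 * k) => ((ff k i.val : ℕ) : ZMod (2 * k))) := by
    intro i
    simp only
    rw [hv, ff_ff hk i.val_lt, ZMod.natCast_zmod_val]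
  refine meet_of_pi (k := k) (by omega) rfl (f := hinv.toPerm) ?_ ?_ ?_ ?_
  · ext1 i
    rw [pow_two]
    exact hinv i
  · intro i hi
    have h1 : ((ff k i.val : ℕ) : ZMod (2 * k)) = i := hi
    have h2 := congrArg ZMod.val h1
    rw [hv] at h2
    exact ff_ne hk h2
  · change ((ff k (0 : ZMod (2 * k)).val : ℕ) : ZMod (2 * k)) = 1
    rw [ZMod.val_zero]
    simp [ff]
  · intro i hi
    have h1 : ((ff k i.val : ℕ) : ZMod (2 * k)) = i + 1 := hi
    have h2 := congrArg ZMod.val h1
    rw [hv] at h2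
    have h3 : (i + 1).val = (i.val + 1) % (2 * k) := by
      rw [ZMod.val_add]
      have : Fact (1 < 2 * k) := ⟨by omega⟩
      rw [ZMod.val_one]
    rw [h3] at h2
    have h4 := i.val_lt
    rw [← ZMod.val_eq_zero]
    rcases Nat.lt_or_ge (i.val + 1) (2 * k) with h5 | h5
    · rw [Nat.mod_eq_of_lt h5] at h2
      exact ff_succ hk h4 h2
    · have h6 : i.val + 1 = 2 * k := by omega
      rw [h6, Nat.mod_self] at h2
      exact (ff_last hk h6 h2).elim

end Cfsg.Agent.H178.MeetTwo
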