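import Mathlib
import Cfsg.Agent.H178.MeetTwo.Four

/-!
# The alternating group of degree `8`
-/

set_option autoImplicit false

namespace Cfsg.Agent.H178.MeetTwo

open Equiv Cfsg.Agent.H68.MeetB

section

variable {α : Type*} [Fintype α] [DecidableEq α]

/-- from the symmetric group to the alternating group -/
theorem alt_of_sub [Nontrivial α] (H : Subgroup (Perm α)) (hi : ¬ 2 ∣ H.index) (x : Perm α)
    (h : ∀ y ∈ H, Perm.sign y = 1 → x * y * x⁻¹ ∈ H → y = 1) : MeetIn 2 (alternatingGroup α) := by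
  have hA : (alternatingGroup α).index = 2 := alternatingGroup.index_eq_two
  obtain ⟨h0, hh0, hs⟩ : ∃ h0 ∈ H, Perm.sign h0 = -1 := by
    by_contra hcon
    push Not at hcon
    apply hi
    rw [← hA]
    apply Subgroup.index_dvd_of_le
    intro y hy
    rw [Perm.mem_alternatingGroup]
    rcases Int.units_eq_one_or (Perm.sign y) with h1 | h1
    · exact h1
    · exact absurd h1 (hcon y hy)
  obtain ⟨x', hx', hxs⟩ : ∃ x' : Perm α, (∀ y, x' * y * x'⁻¹ ∈ H → x * y * x⁻¹ ∈ H) ∧ Perm.sign x' = 1 := by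
    rcases Int.units_eq_one_or (Perm.sign x) with h1 | h1
    · exact ⟨x, fun _ h => h, h1⟩
    · refine ⟨h0 * x, fun y hy => ?_, ?_⟩
      · have h2 := H.mul_mem (H.mul_mem (H.inv_mem hh0) hy) hh0
        have h3 : h0⁻¹ * (h0 * x * y * (h0 * x)⁻¹) * h0 = x * y * x⁻¹ := by group
        rwa [h3] at h2
      · rw [Perm.sign_mul, hs, h1]
        decide
  refine meet_of_sub (H.subgroupOf (alternatingGroup α)) ?_ ⟨x', Perm.mem_alternatingGroup.2 hxs⟩ ?_
  · intro h2
    have h3 : (alternatingGroup α).relIndex H ∣ (alternatingGroup α).index :=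
      Subgroup.relIndex_dvd_index_of_normal _ _
    rw [hA] at h3
    have h4 := Subgroup.relIndex_mul_index (H := H ⊓ alternatingGroup α) (K := H) inf_le_left
    have h5 := Subgroup.relIndex_mul_index (H := H ⊓ alternatingGroup α) (K := alternatingGroup α) inf_le_right
    rw [Subgroup.inf_relIndex_left] at h4
    rw [Subgroup.inf_relIndex_right, hA] at h5
    have h6 : 2 * 2 ∣ (alternatingGroup α).relIndex H * H.index := by
      rw [h4, ← h5]
      exact Nat.mul_dvd_mul_right h2 2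
    rcases (Nat.dvd_prime Nat.prime_two).1 h3 with h7 | h7
    · rw [h7, one_mul] at h6
      exact hi ((Dvd.intro 2 rfl).trans h6)
    · rw [h7] at h6
      exact hi (Nat.dvd_of_mul_dvd_mul_left (by norm_num) h6)
  · intro y hy hxy
    rw [Subgroup.mem_subgroupOf] at hy hxy
    apply Subtype.ext
    exact h y hy (Perm.mem_alternatingGroup.1 y.2) (hx' _ hxy)

theorem alt_of_perm [Nontrivial α] (h : MeetIn 2 (Perm α)) : MeetIn 2 (alternatingGroup α) := by
  have : Fact (Nat.Prime 2) := ⟨Nat.prime_two⟩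
  obtain ⟨Q⟩ : Nonempty (Sylow 2 (Perm α)) := inferInstance
  obtain ⟨x, hx⟩ := h Q Q.isPGroup'
  exact alt_of_sub Q Q.not_dvd_index x fun y hy _ hxy => hx y hy hxy

end

theorem sign_eq {m : ℕ} [NeZero m] {y : Perm (Om m)} (hy : y ∈ Subgroup.centralizer {sg m}) :
    Perm.sign y = ∏ i, Perm.sign (Equiv.addRight (y (i, 0)).2) := by
  have h1 : y = Equiv.prodCongrLeft (fun _ : ZMod 2 => bar m ⟨y, hy⟩) *
      Equiv.prodCongrRight (fun i : ZMod m => Equiv.addRight (y (i, 0)).2) := by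
    ext1 a
    obtain ⟨i, s⟩ := a
    rw [Perm.mul_apply]
    simp only [prodCongrRight_apply, coe_addRight, prodCongrLeft_apply, bar_apply]
    rcases two_cases s with rfl | rfl
    · rw [zero_add]
    · have h2 := comm_apply hy (i, 0)
      rw [sg_apply, sg_apply] at h2
      simp only [zero_add] at h2
      rw [h2, add_comm]
  conv_lhs => rw [h1]
  rw [Perm.sign_mul, Perm.sign_prodCongrLeft, Perm.sign_prodCongrRight, Finset.prod_const, Finset.card_univ,
    ZMod.card]
  have h2 : ∀ u : ℤˣ, u ^ 2 = 1 := Int.units_sq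
  rw [h2, one_mul]

/-- the matching on the four edges -/
def f4 : Perm (ZMod 4) := Equiv.swap 0 1 * Equiv.swap 2 3

/-- the conjugating permutation -/
def x4 : Perm (Om 4) := Equiv.swap (1, 1) (2, 0) * Equiv.swap (2, 1) (3, 0)

theorem f4_sq : f4 ^ 2 = 1 := by decide

theorem f4_ne : ∀ i, f4 i ≠ i := by decide

/-- the conditions -/
def cond4 (b0 b2 : ZMod 4) (a0 a1 a2 a3 : ZMod 2) : Bool :=
  decide (b0 ≠ b2) && decide (b0 ≠ f4 b2) && decide (a0 + a1 + a2 + a3 = 0) &&
  decide (x4 (b0, a0 + 1) = sg 4 (x4 (b0, a0))) && decide (x4 (b2, a2) = sg 4 (x4 (f4 b0, a1))) &&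
  decide (x4 (f4 b2, a3) = sg 4 (x4 (f4 b0, a1 + 1))) &&
  decide (x4 (f4 b2, a3 + 1) = sg 4 (x4 (b2, a2 + 1))) &&
  decide ((x4 (f4 b0, a1)).1 = f4 (x4 (b0, a0)).1) && decide ((x4 (b2, a2 + 1)).1 = f4 (x4 (f4 b0, a1 + 1)).1)

theorem check4 : ∀ (b0 b2 : ZMod 4) (a0 a1 a2 a3 : ZMod 2), cond4 b0 b2 a0 a1 a2 a3 = true →
    b0 = 0 ∧ b2 = 2 ∧ a0 = 0 ∧ a1 = 0 ∧ a2 = 0 ∧ a3 = 0 := by
  decide +kernel

theorem prod4 : ∀ (a : ZMod 4 → ZMod 2), ∏ i, Perm.sign (Equiv.addRight (a i)) = 1 →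
    a 0 + a 1 + a 2 + a 3 = 0 := by
  decide +kernel

theorem meet_eight' : MeetIn 2 (alternatingGroup (Om 4)) := by
  refine alt_of_sub (stab f4) (stab_index (k := 2) rfl f4_sq f4_ne) x4 fun y hy hs hxy => ?_
  obtain ⟨p1, p2⟩ := mem_stab hy
  obtain ⟨q1, q2⟩ := mem_stab hxy
  have hx : x4⁻¹ = x4 := by decide
  rw [hx] at q1 q2
  rw [sign_eq p1] at hs
  have h0 := prod4 _ hs
  obtain ⟨b0, hb0⟩ : ∃ b, (y (0, 0)).1 = b := ⟨_, rfl⟩
  obtain ⟨b2, hb2⟩ : ∃ b, (y (2, 0)).1 = b := ⟨_, rfl⟩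
  obtain ⟨a0, ha0⟩ : ∃ b, (y (0, 0)).2 = b := ⟨_, rfl⟩
  obtain ⟨a1, ha1⟩ : ∃ b, (y (1, 0)).2 = b := ⟨_, rfl⟩
  obtain ⟨a2, ha2⟩ : ∃ b, (y (2, 0)).2 = b := ⟨_, rfl⟩
  obtain ⟨a3, ha3⟩ : ∃ b, (y (3, 0)).2 = b := ⟨_, rfl⟩
  simp only [ha0, ha1, ha2, ha3] at h0
  have y00 : y (0, 0) = (b0, a0) := Prod.ext hb0 ha0
  have y20 : y (2, 0) = (b2, a2) := Prod.ext hb2 ha2
  have y10 : y (1, 0) = (f4 b0, a1) := Prod.ext (by rw [← hb0]; exact p2 0) ha1
  have y30 : y (3, 0) = (f4 b2, a3) := Prod.ext (by rw [← hb2]; exact p2 2) ha3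
  have ys : ∀ i b a, y (i, 0) = (b, a) → y (i, 1) = (b, a + 1) := by
    intro i b a h
    have h1 := comm_apply p1 (i, 0)
    rw [h] at h1
    exact h1
  have y01 := ys _ _ _ y00
  have y11 := ys _ _ _ y10
  have y21 := ys _ _ _ y20
  have y31 := ys _ _ _ y30
  have n1 : b0 ≠ b2 := by
    rintro rfl
    rcases two_cases (a0 + a2) with h | h
    · have h1 : a2 = a0 := by
        rcases two_cases a0 with rfl | rfl <;> rcases two_cases a2 with rfl | rfl <;> first | rfl | (revert h; decide)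
      rw [h1] at y20
      have := y.injective (y00.trans y20.symm)
      revert this
      decide
    · have h1 : a2 + 1 = a0 := by
        rcases two_cases a0 with rfl | rfl <;> rcases two_cases a2 with rfl | rfl <;> first | rfl | (revert h; decide)
      rw [h1] at y21
      have := y.injective (y00.trans y21.symm)
      revert this
      decide
  have n2 : b0 ≠ f4 b2 := by
    rintro rfl
    rcases two_cases (a0 + a3) with h | h
    · have h1 : a3 = a0 := by
        rcases two_cases a0 with rfl | rfl <;> rcases two_cases a3 with rfl | rfl <;> first | rfl | (revert h; decide)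
      rw [h1] at y30
      have := y.injective (y00.trans y30.symm)
      revert this
      decide
    · have h1 : a3 + 1 = a0 := by
        rcases two_cases a0 with rfl | rfl <;> rcases two_cases a3 with rfl | rfl <;> first | rfl | (revert h; decide)
      rw [h1] at y31
      have := y.injective (y00.trans y31.symm)
      revert this
      decide
  have c0 := comm_apply q1 (0, 0)
  have c1 := comm_apply q1 (1, 0)
  have c2 := comm_apply q1 (2, 0)
  have c3 := comm_apply q1 (3, 0)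
  have d0 := q2 0
  have d2 := q2 2
  have x00 : x4 (0, 0) = (0, 0) := by decide
  have x01 : x4 (0, 1) = (0, 1) := by decide
  have x10 : x4 (1, 0) = (1, 0) := by decide
  have x11 : x4 (1, 1) = (2, 0) := by decide
  have x20 : x4 (2, 0) = (1, 1) := by decide
  have x21 : x4 (2, 1) = (3, 0) := by decide
  have x30 : x4 (3, 0) = (2, 1) := by decide
  have x31 : x4 (3, 1) = (3, 1) := by decide
  have s0 : ∀ i : ZMod 4, sg 4 (i, 0) = (i, 1) := by decide
  have f0 : f4 0 = 1 := by decide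
  have f2 : f4 2 = 3 := by decide
  rw [s0, Perm.mul_apply, Perm.mul_apply, Perm.mul_apply, Perm.mul_apply, x00, x01, y01, y00] at c0
  rw [s0, Perm.mul_apply, Perm.mul_apply, Perm.mul_apply, Perm.mul_apply, x10, x11, y20, y10] at c1
  rw [s0, Perm.mul_apply, Perm.mul_apply, Perm.mul_apply, Perm.mul_apply, x20, x21, y30, y11] at c2
  rw [s0, Perm.mul_apply, Perm.mul_apply, Perm.mul_apply, Perm.mul_apply, x30, x31, y31, y21] at c3
  rw [f0, Perm.mul_apply, Perm.mul_apply, Perm.mul_apply, Perm.mul_apply, x10, x00, y10, y00] at d0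
  rw [f2, Perm.mul_apply, Perm.mul_apply, Perm.mul_apply, Perm.mul_apply, x30, x20, y21, y11] at d2
  obtain ⟨rfl, rfl, rfl, rfl, rfl, rfl⟩ := check4 b0 b2 a0 a1 a2 a3 (by
    simp only [cond4, Bool.and_eq_true, decide_eq_true_eq]
    exact ⟨⟨⟨⟨⟨⟨⟨⟨n1, n2⟩, h0⟩, c0⟩, c1⟩, c2⟩, c3⟩, d0⟩, d2⟩)
  rw [f0] at y10 y11
  rw [f2] at y30 y31
  ext1 ⟨i, s⟩
  rw [Perm.one_apply]
  fin_cases i
  · rcases two_cases s with rfl | rfl
    · exact y00
    · exact y01
  · rcases two_cases s with rfl | rfl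
    · exact y10
    · exact y11
  · rcases two_cases s with rfl | rfl
    · exact y20
    · exact y21
  · rcases two_cases s with rfl | rfl
    · exact y30
    · exact y31

end Cfsg.Agent.H178.MeetTwo
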