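import Mathlib
import Cfsg.Agent.H178.MeetTwo.Base

/-!
# The degrees `n` odd and `n ≡ 2 mod 4`
-/

set_option autoImplicit false

namespace Cfsg.Agent.H178.MeetTwo

open Equiv Cfsg.Agent.H68.MeetB

section

variable {N : ℕ} [NeZero N]

omit [NeZero N] in
theorem zero_of_neg (hN : Odd N) {a : ZMod N} (h : -a = a) : a = 0 := by
  have h2 : (2 : ZMod N) * a = 0 := by linear_combination -h
  have h3 : IsUnit ((2 : ℕ) : ZMod N) := (ZMod.isUnit_iff_coprime 2 N).2 hN.coprime_two_left
  rw [Nat.cast_ofNat] at h3
  exact (h3.mul_right_eq_zero).1 h2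

theorem fix_of_comm (hN : Odd N) {α : Type*} {f : ZMod N → α} (hf : Function.Injective f) {y σ g : Perm α}
    (hσ : ∀ i, σ (f i) = f (-i)) (hg : ∀ i, g (f i) = f (i + 1)) (h1 : ∀ a, y (σ a) = σ (y a))
    (h2 : ∀ a, y (g a) = g (y a)) {j : ZMod N} (hj : y (f 0) = f j) (i : ZMod N) : y (f i) = f i := by
  have h3 : j = 0 := by
    apply zero_of_neg hN
    apply hf
    rw [← hσ, ← hj, ← h1, hσ, neg_zero]
  subst h3
  have h4 : ∀ n : ℕ, y (f (n : ZMod N)) = f (n : ZMod N) := by
    intro n
    induction n with
    | zero => rw [Nat.cast_zero]; exact hj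
    | succ n ih => rw [Nat.cast_succ, ← hg, h2, ih]
  obtain ⟨n, rfl⟩ := ZMod.natCast_zmod_surjective i
  exact h4 n

omit [NeZero N] in
theorem exists_half (hN : Odd N) : ∃ c : ZMod N, 2 * c = -1 := by
  have h3 : IsUnit ((2 : ℕ) : ZMod N) := (ZMod.isUnit_iff_coprime 2 N).2 hN.coprime_two_left
  rw [Nat.cast_ofNat] at h3
  obtain ⟨u, hu⟩ := h3
  refine ⟨-(↑u⁻¹ : ZMod N), ?_⟩
  rw [← hu, mul_neg, Units.mul_inv]

theorem support_neg (hN : Odd N) : (Equiv.neg (ZMod N) : Perm (ZMod N)).support = {0}ᶜ := by
  ext a
  rw [Perm.mem_support, Finset.mem_compl, Finset.mem_singleton, not_iff_not]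
  constructor
  · intro h
    exact zero_of_neg hN h
  · rintro rfl
    exact neg_zero

/-- odd degree -/
theorem meet_odd (hN : Odd N) : MeetIn 2 (Perm (ZMod N)) := by
  obtain ⟨c, hc⟩ := exists_half hN
  obtain ⟨m, hm⟩ := hN
  have hN : Odd N := ⟨m, hm⟩
  refine meet_of_sub (Subgroup.centralizer {(Equiv.neg (ZMod N) : Perm (ZMod N))}) ?_ (Equiv.addRight c) ?_
  · refine index_cent (m := m) (r := 1) ?_ ?_ ?_ (Or.inl le_rfl)
    · ext a
      simp [pow_two]
    · rw [support_neg hN, Finset.card_compl, Finset.card_singleton, ZMod.card]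
      omega
    · rw [ZMod.card, hm]
  · intro y hy hxy
    rw [Subgroup.mem_centralizer_singleton_iff] at hy hxy
    have h1 : ∀ a, y (-a) = -(y a) := fun a => congrFun (congrArg DFunLike.coe hy) a
    have h2 : ∀ a : ZMod N, y (-a - c) + c = -(y (a - c) + c) := fun a => by
      have h3 := congrFun (congrArg DFunLike.coe hxy) a
      simpa [sub_eq_add_neg] using h3
    have h4 : ∀ a, y (a + 1) = y a + 1 := by
      intro a
      have h3 := h2 (-(a + 1) + - c)
      have e1 : -(-(a + 1) + -c) - c = a + 1 := by ring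
      have e2 : -(a + 1) + -c - c = -a := by linear_combination -hc
      rw [e1, e2, h1] at h3
      linear_combination h3 - hc
    ext1 a
    exact fix_of_comm hN (f := id) Function.injective_id (y := y) (σ := Equiv.neg _) (g := Equiv.addRight 1)
      (fun _ => rfl) (fun _ => rfl) h1 h4 (j := y 0) rfl a

theorem meet_two (hN : N % 4 = 1) (hN1 : N ≠ 1) : MeetIn 2 (Perm (Option (ZMod N))) := by
  have hodd : Odd N := Nat.odd_iff.2 (by omega)
  obtain ⟨c, hc⟩ := exists_half hodd
  have hne : (1 : ZMod N) ≠ 0 := by
    intro h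
    have h1 : ((1 : ℕ) : ZMod N) = 0 := by rw [Nat.cast_one]; exact h
    rw [ZMod.natCast_eq_zero_iff] at h1
    exact hN1 (Nat.dvd_one.1 h1)
  refine meet_of_sub (Subgroup.centralizer {(Equiv.optionCongr (Equiv.neg (ZMod N)) : Perm (Option (ZMod N)))}) ?_
    (Equiv.optionCongr (Equiv.addRight c)) ?_
  · refine index_cent (m := (N - 1) / 2) (r := 2) ?_ ?_ ?_ (Or.inr ⟨rfl, ?_⟩)
    · ext1 a
      cases a <;> simp [pow_two]
    · have : Perm.support (Equiv.optionCongr (Equiv.neg (ZMod N)) : Perm (Option (ZMod N))) =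
          (({0}ᶜ : Finset (ZMod N))).map Function.Embedding.some := by
        ext a
        rw [Perm.mem_support, Finset.mem_map]
        cases a with
        | none => simp
        | some a =>
          simp only [optionCongr_apply, Option.map_some, Equiv.neg_apply, ne_eq, Option.some.injEq, Finset.mem_compl,
            Finset.mem_singleton, Function.Embedding.some_apply, exists_eq_right, not_iff_not]
          constructor
          · exact fun h => zero_of_neg hodd h
          · rintro rfl
            exact neg_zero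
      rw [this, Finset.card_map, Finset.card_compl, Finset.card_singleton, ZMod.card]
      omega
    · rw [Fintype.card_option, ZMod.card]
      omega
    · rw [Nat.even_iff]
      omega
  · intro y hy hxy
    rw [Subgroup.mem_centralizer_singleton_iff] at hy hxy
    set σ : Perm (Option (ZMod N)) := Equiv.optionCongr (Equiv.neg (ZMod N)) with hσ
    set x : Perm (Option (ZMod N)) := Equiv.optionCongr (Equiv.addRight c) with hx
    have h1 : ∀ a, y (σ a) = σ (y a) := fun a => congrFun (congrArg DFunLike.coe hy) a
    have hg : y * (x⁻¹ * σ * x * σ) = (x⁻¹ * σ * x * σ) * y := by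
      have h5 : y * (x⁻¹ * σ * x) = (x⁻¹ * σ * x) * y := by
        calc y * (x⁻¹ * σ * x) = x⁻¹ * (x * y * x⁻¹ * σ) * x := by group
          _ = x⁻¹ * (σ * (x * y * x⁻¹)) * x := by rw [hxy]
          _ = _ := by group
      rw [← mul_assoc, h5, mul_assoc, hy, ← mul_assoc]
    have hgi : ∀ i : ZMod N, (x⁻¹ * σ * x * σ) (some i) = some (i + 1) := by
      intro i
      have h6 : x⁻¹ = Equiv.optionCongr (Equiv.addRight (-c)) := by
        rw [inv_eq_iff_mul_eq_one]
        ext1 a
        cases a <;> simp [hx]
      rw [h6]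
      simp only [hσ, hx, Perm.mul_apply, optionCongr_apply, Option.map_some, Equiv.neg_apply, coe_addRight,
        Option.some.injEq]
      linear_combination -hc
    have hgn : (x⁻¹ * σ * x * σ) none = none := by
      have h6 : x⁻¹ = Equiv.optionCongr (Equiv.addRight (-c)) := by
        rw [inv_eq_iff_mul_eq_one]
        ext1 a
        cases a <;> simp [hx]
      rw [h6]
      simp [hσ, hx]
    have hn : y none = none := by
      have h7 : y ((x⁻¹ * σ * x * σ) none) = (x⁻¹ * σ * x * σ) (y none) :=
        congrFun (congrArg DFunLike.coe hg) none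
      rw [hgn] at h7
      cases h8 : y none with
      | none => rfl
      | some j =>
        rw [h8, hgi, Option.some.injEq] at h7
        exfalso
        exact hne (by linear_combination -h7)
    ext1 a
    cases a with
    | none => exact hn
    | some a =>
      cases h8 : y (some 0) with
      | none =>
        have := y.injective (h8.trans hn.symm)
        exact absurd this (by simp)
      | some j =>
        exact fix_of_comm hodd (f := some) (Option.some_injective _) (y := y) (σ := σ) (g := x⁻¹ * σ * x * σ)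
          (fun _ => rfl) hgi h1 (fun a => congrFun (congrArg DFunLike.coe hg) a) h8 a

end

end Cfsg.Agent.H178.MeetTwo
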