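import Mathlib
import Cfsg.Agent.H178.MeetTwo.Odd
import Cfsg.Agent.H178.MeetTwo.Eight

/-!
# Two Sylow `2`-subgroups of `S_n` (`n ≠ 2, 4, 8`) and of `A_n` (`n ≥ 5`) meeting trivially

* `sym2` : `MeetIn 2 (Perm (Fin n))` for `n ≠ 2, 4, 8`;
* `meet2_alt` : `MeetIn 2 (alternatingGroup (Fin n))` for `n ≥ 5`.
-/

set_option autoImplicit false

namespace Cfsg.Agent.H178.MeetTwo

open Equiv Cfsg.Agent.H68.MeetB

/-- a Sylow `2`-subgroup of the symmetric group of degree `n ≠ 2, 4, 8` meets some conjugate trivially -/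
theorem sym2 {n : ℕ} (h2 : n ≠ 2) (h4 : n ≠ 4) (h8 : n ≠ 8) : MeetIn 2 (Perm (Fin n)) := by
  rcases Nat.eq_zero_or_pos n with h0 | h0
  · subst h0
    exact fun R _ => ⟨1, fun y _ _ => Subsingleton.elim _ _⟩
  have hcases : n % 2 = 1 ∨ n % 4 = 2 ∨ n % 4 = 0 := by omega
  rcases hcases with h | h | h
  · have : NeZero n := ⟨h0.ne'⟩
    have e : ZMod n ≃ Fin n := Fintype.equivOfCardEq (by rw [ZMod.card, Fintype.card_fin])
    exact MeetIn.congr e.permCongrHom (meet_odd (Nat.odd_iff.2 h))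
  · have : NeZero (n - 1) := ⟨by omega⟩
    have e : Option (ZMod (n - 1)) ≃ Fin n :=
      Fintype.equivOfCardEq (by rw [Fintype.card_option, ZMod.card, Fintype.card_fin]; omega)
    exact MeetIn.congr e.permCongrHom (meet_two (by omega) (by omega))
  · have : NeZero (2 * (n / 4)) := ⟨by omega⟩
    have e : Om (2 * (n / 4)) ≃ Fin n :=
      Fintype.equivOfCardEq (by rw [Fintype.card_prod, ZMod.card, ZMod.card, Fintype.card_fin]; omega)
    exact MeetIn.congr e.permCongrHom (meet_four (by omega))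

/-- a Sylow `2`-subgroup of the alternating group of degree `n ≥ 5` meets some conjugate trivially -/
theorem meet2_alt {n : ℕ} (hn : 5 ≤ n) : MeetIn 2 (alternatingGroup (Fin n)) := by
  by_cases h8 : n = 8
  · subst h8
    have e : Om 4 ≃ Fin 8 := Fintype.equivOfCardEq rfl
    exact MeetIn.congr e.altCongrHom meet_eight'
  · have : Nontrivial (Fin n) := Fin.nontrivial_iff_two_le.2 (by omega)
    exact alt_of_perm (sym2 (by omega) (by omega) h8)

end Cfsg.Agent.H178.MeetTwo
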